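import Cfsg.Agent.S0019
import Cfsg.Agent.S0007
import Mathlib.GroupTheory.Sylow
import Mathlib.Data.Nat.Factorization.Basic
import Mathlib.Tactic.IntervalCases

/-!
Hall's converse: a finite group having `p`-complements for all primes `p` is solvable, assuming
Burnside's `p^a q^b` theorem as a hypothesis.
-/

set_option autoImplicit false

namespace Cfsg.Agent.Lib.HallConverse.Main

universe u

/-- The statement of Burnside's `p^a q^b` theorem (in a fixed universe). -/
def BurnsidePQ : Prop :=
  ∀ (G : Type u) [Group G] [Finite G] (p q a b : ℕ), p.Prime → q.Prime → p ≠ q →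
    Nat.card G = p ^ a * q ^ b → Group.IsSolvable G

/-- The `p`-complement property. -/
def HasComplements (G : Type u) [Group G] : Prop :=
  ∀ p : ℕ, p.Prime → ∃ H : Subgroup G, H.index = p ^ (Nat.card G).factorization p

theorem factorization_card_of_index {G : Type u} [Group G] [Finite G] {x : ℕ} (hx : x.Prime)
    (H : Subgroup G) (hH : H.index = x ^ (Nat.card G).factorization x) (s : ℕ) :
    (Nat.card H).factorization s = if s = x then 0 else (Nat.card G).factorization s := by
  have hG : Nat.card G ≠ 0 := Nat.card_pos.ne'
  have hH0 : Nat.card H ≠ 0 := Nat.card_pos.ne'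
  have hI0 : H.index ≠ 0 := Subgroup.index_ne_zero_of_finite
  have h1 : Nat.card G = H.index * Nat.card H := by
    rw [mul_comm]; exact (Subgroup.card_mul_index H).symm
  have h2 : (Nat.card G).factorization s = (H.index).factorization s + (Nat.card H).factorization s := by
    conv_lhs => rw [h1]
    rw [Nat.factorization_mul hI0 hH0]
    rfl
  rw [hH, Nat.factorization_pow, hx.factorization] at h2
  by_cases hs : s = x
  · subst hs
    simp at h2
    simp
    omega
  · simp only [hs, if_false]
    have : ((Nat.card G).factorization x • Finsupp.single x 1) s = 0 := by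
      simp [Ne.symm hs]
    rw [this] at h2
    omega

theorem hasComplements_of_subgroup {G : Type u} [Group G] [Finite G] (hG : HasComplements G)
    {x : ℕ} (hx : x.Prime) (H : Subgroup G) (hH : H.index = x ^ (Nat.card G).factorization x) :
    HasComplements H := by
  intro s hs
  by_cases hsx : s = x
  · subst hsx
    refine ⟨⊤, ?_⟩
    rw [factorization_card_of_index hx H hH s]
    simp
  · obtain ⟨K, hK⟩ := hG s hs
    refine ⟨K.subgroupOf H, ?_⟩
    rw [factorization_card_of_index hx H hH s, if_neg hsx]
    have hcop : K.index.Coprime H.index := by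
      rw [hK, hH]
      exact Nat.Coprime.pow _ _ ((Nat.coprime_primes hs hx).2 hsx)
    have h1 := (Cfsg.Agent.S0007.result K H hcop).1
    have h2 : (K ⊓ H).relIndex H * H.index = (K ⊓ H).index :=
      Subgroup.relIndex_mul_index inf_le_right
    rw [Subgroup.inf_relIndex_right, h1] at h2
    have h3 : K.relIndex H = K.index :=
      Nat.eq_of_mul_eq_mul_right (Nat.pos_of_ne_zero Subgroup.index_ne_zero_of_finite) h2
    rw [← hK, ← h3]
    rfl

theorem main (hB : BurnsidePQ.{u}) : ∀ (n : ℕ) (G : Type u) [Group G] [Finite G],
    Nat.card G = n → HasComplements G → Group.IsSolvable G := by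
  intro n
  induction n using Nat.strong_induction_on with
  | _ n ih =>
  intro G _ _ hn hG
  by_cases h2 : (Nat.card G).primeFactors.card ≤ 2
  · -- at most two primes
    have hne : Nat.card G ≠ 0 := Nat.card_pos.ne'
    have hprod : ∏ x ∈ (Nat.card G).primeFactors, x ^ (Nat.card G).factorization x = Nat.card G :=
      Nat.prod_factorization_pow_eq_self hne
    interval_cases hc : (Nat.card G).primeFactors.card
    · rw [Finset.card_eq_zero] at hc
      rw [hc, Finset.prod_empty] at hprod
      have : Subsingleton G := (Nat.card_eq_one_iff_unique.1 hprod.symm).1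
      infer_instance
    · obtain ⟨p, hp⟩ := Finset.card_eq_one.1 hc
      have hpp : p.Prime := Nat.prime_of_mem_primeFactors (hp ▸ Finset.mem_singleton_self p)
      rw [hp, Finset.prod_singleton] at hprod
      by_cases h2p : p = 2
      · exact hB G p 3 _ 0 hpp Nat.prime_three (by omega) (by simpa using hprod.symm)
      · exact hB G p 2 _ 0 hpp Nat.prime_two h2p (by simpa using hprod.symm)
    · obtain ⟨p, q, hpq, hp⟩ := Finset.card_eq_two.1 hc
      have hpp : p.Prime := Nat.prime_of_mem_primeFactors (n := Nat.card G) (by simp [hp])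
      have hqp : q.Prime := Nat.prime_of_mem_primeFactors (n := Nat.card G) (by simp [hp])
      rw [hp, Finset.prod_pair hpq] at hprod
      exact hB G p q _ _ hpp hqp hpq hprod.symm
  · push Not at h2
    obtain ⟨p, hp, q, hq, r, hr, hpq, hpr, hqr⟩ := Finset.two_lt_card.1 h2
    have hpp := Nat.prime_of_mem_primeFactors hp
    have hqp := Nat.prime_of_mem_primeFactors hq
    have hrp := Nat.prime_of_mem_primeFactors hr
    obtain ⟨Hp, hHp⟩ := hG p hpp
    obtain ⟨Hq, hHq⟩ := hG q hqp
    obtain ⟨Hr, hHr⟩ := hG r hrp
    have hsolv : ∀ (x : ℕ) (hx : x.Prime) (H : Subgroup G), x ∈ (Nat.card G).primeFactors →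
        H.index = x ^ (Nat.card G).factorization x → Group.IsSolvable H := by
      intro x hx H hxG hH
      have hlt : Nat.card H < n := by
        rw [← hn]
        have h1 : Nat.card H * H.index = Nat.card G := Subgroup.card_mul_index H
        have h3 : 1 < H.index := by
          rw [hH]
          apply Nat.one_lt_pow
          · exact (hx.factorization_pos_of_dvd Nat.card_pos.ne' (Nat.dvd_of_mem_primeFactors hxG)).ne'
          · exact hx.one_lt
        rw [← h1]
        exact lt_mul_of_one_lt_right Nat.card_pos h3
      exact ih _ hlt H rfl (hasComplements_of_subgroup hG hx H hH)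
    have hcop : ∀ (x y : ℕ), x.Prime → y.Prime → x ≠ y → ∀ (X Y : Subgroup G),
        X.index = x ^ (Nat.card G).factorization x → Y.index = y ^ (Nat.card G).factorization y →
        X.index.Coprime Y.index := by
      intro x y hx hy hxy X Y hX hY
      rw [hX, hY]
      exact Nat.Coprime.pow _ _ ((Nat.coprime_primes hx hy).2 hxy)
    exact Cfsg.Agent.S0019.result Hp Hq Hr (hsolv p hpp Hp hp hHp) (hsolv q hqp Hq hq hHq)
      (hsolv r hrp Hr hr hHr)
      (Cfsg.Agent.S0007.result Hp Hq (hcop p q hpp hqp hpq Hp Hq hHp hHq)).2
      (Cfsg.Agent.S0007.result Hp Hr (hcop p r hpp hrp hpr Hp Hr hHp hHr)).2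
      (hcop q r hqp hrp hqr Hq Hr hHq hHr)

end Cfsg.Agent.Lib.HallConverse.Main
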